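import Mathlib
import Cfsg.Agent.KSG.AltNil
import Cfsg.Agent.KSG.AltGlue

/-! A relation between three-cycles in `A₈` and `A₉`. -/

set_option autoImplicit false

namespace CL.YK
open Equiv

/-- Proof.  The cycle type of `y` is `replicate k 3`, `1 ≤ k ≤ 3`.  The centraliser `C` of `y` in
`Perm (Fin n)` is not inside the alternating group (`CL.KSG.not_centralizer_le_alt_of_odd` with
`Q = zpowers y`, `t = a`), and `C ⊓ alternatingGroup` contains the four-group `{1, a, b, a b}`, so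
`8 ∣ |C| = (n - 3 k)! * 3 ^ k * k!` (`Equiv.Perm.nat_card_centralizer`), and `k = 1`. -/
theorem three_cycle_of_four {n : ℕ} (hn : n = 8 ∨ n = 9) {y a b : alternatingGroup (Fin n)}
    (h3 : orderOf y = 3) (ha : a * a = 1) (hb : b * b = 1) (hab : Commute a b) (a1 : a ≠ 1)
    (b1 : b ≠ 1) (ab : a ≠ b) (hay : Commute a y) (hby : Commute b y) :
    (y : Perm (Fin n)).IsThreeCycle := by
  have h3' : orderOf (y : Perm (Fin n)) = 3 := by rw [Subgroup.orderOf_coe, h3]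
  obtain ⟨k, hk⟩ := Perm.cycleType_prime_order (σ := (y : Perm (Fin n))) (by rw [h3']; norm_num)
  rw [h3'] at hk
  have hC := Perm.nat_card_centralizer (y : Perm (Fin n))
  have hs := Perm.sum_cycleType_le (y : Perm (Fin n))
  rw [hk, Multiset.sum_replicate, Fintype.card_fin, smul_eq_mul] at hs hC
  rw [Multiset.prod_replicate, Multiset.toFinset_replicate, if_neg (Nat.succ_ne_zero k), Finset.prod_singleton,
    Multiset.count_replicate_self] at hC
  have h8 : 8 ∣ Nat.card (Subgroup.centralizer ({(y : Perm (Fin n))} : Set (Perm (Fin n)))) := by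
    set C := Subgroup.centralizer ({(y : Perm (Fin n))} : Set (Perm (Fin n))) with hCd
    have hn : ¬ C ≤ alternatingGroup (Fin n) := by
      have := CL.KSG.not_centralizer_le_alt_of_odd (Q := Subgroup.zpowers (y : Perm (Fin n)))
        (t := (a : Perm (Fin n))) (by rw [Nat.card_zpowers, h3']; norm_num)
        (by rw [Subgroup.orderOf_coe]; exact orderOf_eq_prime (by rw [pow_two, ha]) a1) (by
          rintro _ ⟨i, rfl⟩
          exact ((hay.map (alternatingGroup (Fin n)).subtype).zpow_right i).eq)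
      refine fun h => this (le_trans (fun x hx => ?_) h)
      exact Subgroup.mem_centralizer_singleton_iff.2 (hx _ (Subgroup.mem_zpowers _)).symm
    have hi : (alternatingGroup (Fin n)).relIndex C = 2 := by
      have : Nontrivial (Fin n) := Fin.nontrivial_iff_two_le.2 (by omega)
      have h1 := Subgroup.relIndex_dvd_index_of_normal (alternatingGroup (Fin n)) C
      rw [alternatingGroup.index_eq_two] at h1
      exact ((Nat.dvd_prime Nat.prime_two).1 h1).resolve_left fun e => hn (Subgroup.relIndex_eq_one.1 e)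
    let V : Subgroup (alternatingGroup (Fin n)) :=
      { carrier := {1, a, b, a * b}
        one_mem' := by simp
        mul_mem' := by
          have e1 : b * a = a * b := hab.symm
          have e2 : ∀ x, a * (a * x) = x := fun x => by rw [← mul_assoc, ha, one_mul]
          have e3 : ∀ x, b * (a * x) = a * (b * x) := fun x => by rw [← mul_assoc, e1, mul_assoc]
          rintro x z (rfl | rfl | rfl | rfl) (rfl | rfl | rfl | rfl) <;>
            simp [mul_assoc, ha, hb, e1, e2, e3]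
        inv_mem' := by
          have e1 : a⁻¹ = a := inv_eq_of_mul_eq_one_right ha
          have e2 : b⁻¹ = b := inv_eq_of_mul_eq_one_right hb
          rintro x (rfl | rfl | rfl | rfl) <;> simp [e1, e2, hab.symm.eq] }
    have hV : Nat.card V = 4 := by
      have e1 : a * b ≠ 1 := fun e => ab (mul_right_cancel (e.trans hb.symm))
      have e2 : a ≠ a * b := fun e => b1 (by simpa using e.symm)
      have e3 : b ≠ a * b := fun e => a1 (by simpa using e.symm)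
      change ({1, a, b, a * b} : Set (alternatingGroup (Fin n))).ncard = 4
      rw [Set.ncard_insert_of_notMem (by simp [a1.symm, b1.symm, e1.symm]),
        Set.ncard_insert_of_notMem (by simp only [Set.mem_insert_iff, Set.mem_singleton_iff]; tauto),
        Set.ncard_pair e3]
    have h4 : V.map (alternatingGroup (Fin n)).subtype ≤ alternatingGroup (Fin n) ⊓ C := by
      rintro _ ⟨x, hx, rfl⟩
      refine ⟨x.2, Subgroup.mem_centralizer_singleton_iff.2 (congrArg Subtype.val (show x * y = y * x from ?_))⟩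
      rcases hx with rfl | rfl | rfl | rfl
      exacts [Commute.one_left y, hay, hby, hay.mul_left hby]
    have h5 := Subgroup.card_dvd_of_le h4
    rw [Subgroup.card_map_of_injective (Subgroup.subtype_injective _), hV] at h5
    have h6 := ((alternatingGroup (Fin n)).subgroupOf C).card_mul_index
    rw [← Subgroup.relIndex, hi, ← Subgroup.inf_subgroupOf_right,
      Nat.card_congr (Subgroup.subgroupOfEquivOfLe inf_le_right).toEquiv] at h6
    rw [← h6]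
    exact Nat.mul_dvd_mul_right h5 2
  rw [hC] at h8
  have hk0 : k = 0 := by
    have : k ≤ 2 := by omega
    rcases hn with rfl | rfl <;> interval_cases k <;> first | rfl | (exfalso; revert h8; decide)
  rw [hk0] at hk
  exact hk

section
variable {α : Type*} {y y' c : Perm α} {a b d p q r s : α}

/-- `y` is the three-cycle `(a b d)` -/
structure T3 (y : Perm α) (a b d : α) : Prop where
  ab : a ≠ b
  ac : a ≠ d
  bc : b ≠ d
  ya : y a = b
  yb : y b = d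
  yc : y d = a
  fix : ∀ x, x ≠ a → x ≠ b → x ≠ d → y x = x

/-- `c` is the double transposition `(p q) (r s)` -/
structure Sw (c : Perm α) (p q r s : α) : Prop where
  pq : p ≠ q
  pr : p ≠ r
  ps : p ≠ s
  qr : q ≠ r
  qs : q ≠ s
  rs : r ≠ s
  cp : c p = q
  cq : c q = p
  cr : c r = s
  cs : c s = r
  fix : ∀ x, x ≠ p → x ≠ q → x ≠ r → x ≠ s → c x = x

theorem T3.cyc (h : T3 y a b d) : T3 y b d a :=
  ⟨h.bc, h.ab.symm, h.ac.symm, h.yb, h.yc, h.ya, fun x h1 h2 h3 => h.fix x h3 h1 h2⟩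

theorem T3.rot (h : T3 y a b d) (h' : T3 y p q r) :
    p = a ∧ q = b ∧ r = d ∨ p = b ∧ q = d ∧ r = a ∨ p = d ∧ q = a ∧ r = b := by
  by_cases e1 : p = a
  · subst e1
    obtain rfl : q = b := h'.ya.symm.trans h.ya
    exact Or.inl ⟨rfl, rfl, h'.yb.symm.trans h.yb⟩
  by_cases e2 : p = b
  · subst e2
    obtain rfl : q = d := h'.ya.symm.trans h.yb
    exact Or.inr (Or.inl ⟨rfl, rfl, h'.yb.symm.trans h.yc⟩)
  by_cases e3 : p = d
  · subst e3
    obtain rfl : q = a := h'.ya.symm.trans h.yc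
    exact Or.inr (Or.inr ⟨rfl, rfl, h'.yb.symm.trans h.ya⟩)
  exact absurd (h'.ya.symm.trans (h.fix p e1 e2 e3)) h'.ab.symm

theorem T3.sq (h : T3 y p q r) (h' : T3 y' p q s) (rs : r ≠ s) : (y * y') ^ 2 = 1 := by
  obtain ⟨h1, h2, h3, h4, h5, h6, h7⟩ := h
  obtain ⟨k1, k2, k3, k4, k5, k6, k7⟩ := h'
  ext z
  simp only [pow_two, Perm.mul_apply, Perm.one_apply]
  have e1 := h7 s k2.symm k3.symm rs.symm
  have e2 := k7 r h2.symm h3.symm rs
  by_cases a1 : z = p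
  · rw [a1, k4, h5, e2, h6]
  by_cases a2 : z = q
  · rw [a2, k5, e1, k6, h4]
  by_cases a3 : z = r
  · rw [a3, e2, h6, k4, h5]
  by_cases a4 : z = s
  · rw [a4, k6, h4, k5, e1]
  rw [k7 z a1 a2 a4, h7 z a1 a2 a3, k7 z a1 a2 a4, h7 z a1 a2 a3]

theorem T3.sw (h : T3 y p q r) (h' : T3 y' p q s) (rs : r ≠ s) : Sw (y * y'⁻¹ * y) p q r s := by
  obtain ⟨h1, h2, h3, h4, h5, h6, h7⟩ := h
  obtain ⟨k1, k2, k3, k4, k5, k6, k7⟩ := h'
  have i : ∀ {x z}, y' x = z → y'⁻¹ z = x := fun e => Perm.inv_eq_iff_eq.2 e.symm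
  have e1 := h7 s k2.symm k3.symm rs.symm
  refine ⟨h1, h2, k2, h3, k3, rs, ?_, ?_, ?_, ?_, fun x a1 a2 a3 a4 => ?_⟩ <;> simp only [Perm.mul_apply]
  · rw [h4, i k4, h4]
  · rw [h5, i (k7 r h2.symm h3.symm rs), h6]
  · rw [h6, i k6, e1]
  · rw [e1, i k5, h5]
  · rw [h7 x a1 a2 a3, i (k7 x a1 a2 a4), h7 x a1 a2 a3]

variable [Fintype α] [DecidableEq α]

theorem T3.of (h : y.IsThreeCycle) (ha : y a ≠ a) : T3 y a (y a) (y (y a)) := by
  have h1 := Perm.mem_support.2 ha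
  have h2 := h.nodup_iff_mem_support.2 h1
  have h3 := h.support_eq_iff_mem_support.2 h1
  simp only [List.nodup_cons, List.mem_cons, List.not_mem_nil, or_false, not_or] at h2
  refine ⟨h2.1.1, h2.1.2, h2.2.1, rfl, rfl, ?_, fun x a1 a2 a3 => ?_⟩
  · have := congrArg (fun g : Perm α => g a) (h.orderOf ▸ pow_orderOf_eq_one y)
    simpa [pow_succ] using this
  · by_contra e
    have := Perm.mem_support.2 e
    rw [h3] at this
    simp [a1, a2, a3] at this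

theorem T3.ex (h : y.IsThreeCycle) : ∃ a b d, T3 y a b d := by
  obtain ⟨a, ha, -⟩ := h.isCycle
  exact ⟨_, _, _, T3.of h ha⟩

theorem T3.pair (h : y.IsThreeCycle) (h' : y'.IsThreeCycle) (h1 : (y * y') ^ 2 = 1) (h2 : y * y' ≠ 1) :
    ∃ p q r s, T3 y p q r ∧ T3 y' p q s ∧ r ≠ s := by
  have e : ∀ z, y (y' (y (y' z))) = z := fun z => by
    simpa [pow_two] using congrArg (fun g : Perm α => g z) h1
  obtain ⟨p, hp, hp'⟩ : ∃ p, y p ≠ p ∧ y' p ≠ p := by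
    obtain ⟨a, b, d, k⟩ := T3.ex h
    by_contra hn
    push Not at hn
    have e1 := hn a (by rw [k.ya]; exact k.ab.symm)
    have e2 := hn b (by rw [k.yb]; exact k.bc.symm)
    have e3 := e a
    rw [e1, k.ya, e2, k.yb] at e3
    exact k.ac e3.symm
  have k := T3.of h hp
  have k' := T3.of h' hp'
  generalize y (y p) = r, y' (y' p) = r' at k k'
  generalize y p = q, y' p = q' at k k'
  by_cases e1 : q' = q
  · subst e1
    refine ⟨_, _, _, _, k, k', fun e2 => ?_⟩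
    have := e p
    rw [k'.ya, k.yb, e2, k'.yc, k.ya] at this
    exact k.ab this.symm
  by_cases e2 : q' = r
  · subst e2
    exfalso
    obtain ⟨h1, h2', h3, h4, h5, h6, h7⟩ := k
    obtain ⟨k1, k2, k3, k4, k5, k6, k7⟩ := k'
    by_cases e3 : r' = q
    · subst e3
      refine h2 (Equiv.ext fun z => ?_)
      simp only [Perm.mul_apply, Perm.one_apply]
      by_cases a1 : z = p
      · rw [a1, k4, h6]
      by_cases a2 : z = q'
      · rw [a2, k5, h5]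
      by_cases a3 : z = r'
      · rw [a3, k6, h4]
      rw [k7 z a1 a2 a3, h7 z a1 a3 a2]
    · have e4 := e q
      rw [k7 q h1.symm h3 (Ne.symm e3), h5, k5, h7 r' k2.symm e3 k3.symm] at e4
      exact e3 e4
  · have e3 := e p
    rw [k'.ya, k.fix q' k'.ab.symm e1 e2, k'.yb, ← k.yc] at e3
    obtain rfl := y.injective e3
    exact ⟨_, _, _, _, k.cyc.cyc, k'.cyc.cyc, Ne.symm e1⟩

theorem Sw.inv (h : Sw c p q r s) (t : y.IsThreeCycle) (e : c * y * c⁻¹ = y⁻¹) :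
    ∃ x, x ≠ p ∧ x ≠ q ∧ x ≠ r ∧ x ≠ s ∧ (T3 y p q x ∨ T3 y q p x ∨ T3 y r s x ∨ T3 y s r x) := by
  have e' : ∀ z, y (c (y z)) = c z := fun z => by
    have := congrArg (fun g : Perm α => y (g (c z))) e
    simpa using this
  have key : ∀ {a b d}, T3 y a b d → c d = d →
      ∃ x, x ≠ p ∧ x ≠ q ∧ x ≠ r ∧ x ≠ s ∧ (T3 y p q x ∨ T3 y q p x ∨ T3 y r s x ∨ T3 y s r x) := by
    intro a b d k hd
    have e1 := e' b
    rw [k.yb, hd, k.yc] at e1
    obtain ⟨h1, h2, h3, h4, h5, h6, h7, h8, h9, h10, h11⟩ := h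
    refine ⟨d, fun e => h1 ?_, fun e => h1 ?_, fun e => h6 ?_, fun e => h6 ?_, ?_⟩
    · rw [← h7, ← e, hd]
    · rw [← h8, ← e, hd]
    · rw [← h9, ← e, hd]
    · rw [← h10, ← e, hd]
    have e4 : a = p ∧ b = q ∨ a = q ∧ b = p ∨ a = r ∧ b = s ∨ a = s ∧ b = r := by
      by_cases a1 : b = p
      · exact Or.inr (Or.inl ⟨by rw [e1, a1, h7], a1⟩)
      by_cases a2 : b = q
      · exact Or.inl ⟨by rw [e1, a2, h8], a2⟩
      by_cases a3 : b = r
      · exact Or.inr (Or.inr (Or.inr ⟨by rw [e1, a3, h9], a3⟩))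
      by_cases a4 : b = s
      · exact Or.inr (Or.inr (Or.inl ⟨by rw [e1, a4, h10], a4⟩))
      exact absurd (e1.trans (h11 b a1 a2 a3 a4)) k.ab
    rcases e4 with ⟨rfl, rfl⟩ | ⟨rfl, rfl⟩ | ⟨rfl, rfl⟩ | ⟨rfl, rfl⟩ <;> simp [k]
  obtain ⟨a, b, d, k⟩ := T3.ex t
  have e1 := e' a
  have e2 := e' b
  have e3 := e' d
  rw [k.ya] at e1
  rw [k.yb] at e2
  rw [k.yc] at e3
  by_cases c1 : c a = a
  · exact key k.cyc c1
  by_cases c2 : c a = b
  · exact key k (by rw [← e3, c2, k.yb])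
  by_cases c3 : c a = d
  · refine key k.cyc.cyc ?_
    rw [c3, ← k.yb] at e1
    exact y.injective e1
  · rw [k.fix _ c1 c2 c3] at e3
    exact absurd (c.injective e3) k.ac

end


section
variable {α : Type*} {p q r s u v x x' x4 x5 a b z : α}

/-- the triple `(u, v, x)` is a rotation of `(a, b, z)` -/
def Rot (u v x a b z : α) : Prop :=
  u = a ∧ v = b ∧ x = z ∨ u = b ∧ v = z ∧ x = a ∨ u = z ∧ v = a ∧ x = b

theorem pt1 (n1 : p ≠ q) (n2 : p ≠ r) (n3 : p ≠ s) (n4 : q ≠ r) (n5 : q ≠ s) (n6 : r ≠ s) (xx : x ≠ x')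
    (f1 : x4 ≠ p) (f2 : x4 ≠ q) (f3 : x4 ≠ r) (f4 : x4 ≠ s)
    (g1 : x5 ≠ p) (g2 : x5 ≠ q) (g3 : x5 ≠ r) (g4 : x5 ≠ s)
    (h4 : Rot u v x p q x4 ∨ Rot u v x q p x4 ∨ Rot u v x r s x4 ∨ Rot u v x s r x4)
    (h5 : Rot u v x' p q x5 ∨ Rot u v x' q p x5 ∨ Rot u v x' r s x5 ∨ Rot u v x' s r x5) :
    (u = p ∧ v = q ∨ u = q ∧ v = p ∨ u = r ∧ v = s ∨ u = s ∧ v = r) ∧ x = x4 ∧ x' = x5 := by
  unfold Rot at h4 h5
  rcases h4 with (h | h | h) | (h | h | h) | (h | h | h) | (h | h | h) <;> obtain ⟨rfl, rfl, rfl⟩ := h <;>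
    simp_all [eq_comm]

theorem pt2 (n3 : p ≠ s) (n5 : q ≠ s) (n6 : r ≠ s)
    (h : u = p ∧ v = q ∨ u = q ∧ v = p ∨ u = r ∧ v = s ∨ u = s ∧ v = r) (k : Rot u v z p q r) :
    u = p ∧ v = q ∨ u = q ∧ v = p := by
  unfold Rot at k
  rcases h with h | h | ⟨rfl, rfl⟩ | ⟨rfl, rfl⟩
  exacts [Or.inl h, Or.inr h, by simp_all [eq_comm], by simp_all [eq_comm]]

theorem pt3 {x6 z6 : α} (f1 : x ≠ p) (f2 : x ≠ q) (f3 : x ≠ r) (f4 : x ≠ s)
    (g1 : x' ≠ p) (g2 : x' ≠ q) (g3 : x' ≠ r) (g4 : x' ≠ s)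
    (i1 : x6 ≠ p) (i2 : x6 ≠ q) (i3 : x6 ≠ r) (i4 : x6 ≠ s) (xx : x ≠ x')
    (e : u = p ∧ v = q ∨ u = q ∧ v = p) (h1 : a = p ∨ a = q ∨ a = r ∨ a = s) (h2 : b = p ∨ b = q ∨ b = r ∨ b = s)
    (k : Rot u v z6 a b x6 ∨ Rot v u z6 a b x6 ∨ Rot x x' z6 a b x6 ∨ Rot x' x z6 a b x6) :
    (a = u ∧ b = v ∨ a = v ∧ b = u) ∧ x6 = z6 := by
  have a1 : x ≠ a := by rintro rfl; tauto
  have a2 : x ≠ b := by rintro rfl; tauto
  have a3 : x' ≠ a := by rintro rfl; tauto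
  have a4 : x' ≠ b := by rintro rfl; tauto
  have a5 : u ≠ x6 := by rintro rfl; tauto
  have a6 : v ≠ x6 := by rintro rfl; tauto
  clear f1 f2 f3 f4 g1 g2 g3 g4 i1 i2 i3 i4 e h1 h2
  unfold Rot at k
  rcases k with (h | h | h) | (h | h | h) | (h | h | h) | (h | h | h) <;> obtain ⟨e1, e2, e3⟩ := h <;>
    first
    | contradiction
    | exact ⟨Or.inl ⟨e1.symm, e2.symm⟩, e3.symm⟩
    | exact ⟨Or.inr ⟨e1.symm, e2.symm⟩, e3.symm⟩

end

/-- Proof.  `y2 = (0 1 2)`, `y3 = (0 1 3)` after renaming (two three-cycles whose product is an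
involution share exactly two points, with the same orientation), `c = y2 y3⁻¹ y2 = (0 1)(2 3)`.
A three-cycle inverted by `c` has support `{0, 1, x}` or `{2, 3, x}` with `x` fixed by `c`.
`y4`, `y5` share two points, `c' = y4 y5⁻¹ y4 = (p q)(x x')` with `{p, q}` that pair; `c'` inverts
`y2`, so the pair is `{0, 1}`.  `y6` is inverted by `c` and `c'`, so its support is `{0, 1, z}` with
`z ≠ 2, x`.  Two of `y2, y4, y6` have the same orientation on `0, 1` (`CL.KSG.tri_mul_sq`). -/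
theorem three_cycle_rel {α : Type*} [Fintype α] [DecidableEq α] {y2 y3 y4 y5 y6 : Perm α}
    (t2 : y2.IsThreeCycle) (t3 : y3.IsThreeCycle) (t4 : y4.IsThreeCycle) (t5 : y5.IsThreeCycle)
    (t6 : y6.IsThreeCycle) (h23 : (y2 * y3) ^ 2 = 1) (n23 : y2 * y3 ≠ 1)
    (h45 : (y4 * y5) ^ 2 = 1) (n45 : y4 * y5 ≠ 1)
    (c4 : y2 * y3⁻¹ * y2 * y4 * (y2 * y3⁻¹ * y2)⁻¹ = y4⁻¹)
    (c5 : y2 * y3⁻¹ * y2 * y5 * (y2 * y3⁻¹ * y2)⁻¹ = y5⁻¹)
    (c6 : y2 * y3⁻¹ * y2 * y6 * (y2 * y3⁻¹ * y2)⁻¹ = y6⁻¹)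
    (d2 : y4 * y5⁻¹ * y4 * y2 * (y4 * y5⁻¹ * y4)⁻¹ = y2⁻¹)
    (d6 : y4 * y5⁻¹ * y4 * y6 * (y4 * y5⁻¹ * y4)⁻¹ = y6⁻¹) :
    (y2 * y4) ^ 2 = 1 ∨ (y2 * y6) ^ 2 = 1 ∨ (y4 * y6) ^ 2 = 1 := by
  obtain ⟨p, q, r, s, k2, k3, rs⟩ := T3.pair t2 t3 h23 n23
  obtain ⟨u, v, x, x', k4, k5, xx⟩ := T3.pair t4 t5 h45 n45
  have sc := k2.sw k3 rs
  have sd := k4.sw k5 xx
  obtain ⟨x4, f1, f2, f3, f4, a4⟩ := sc.inv t4 c4
  obtain ⟨x5, g1, g2, g3, g4, a5⟩ := sc.inv t5 c5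
  obtain ⟨x6, i1, i2, i3, i4, a6⟩ := sc.inv t6 c6
  obtain ⟨z2, -, -, -, -, b2⟩ := sd.inv t2 d2
  obtain ⟨z6, j1, j2, j3, j4, b6⟩ := sd.inv t6 d6
  have e4 := pt1 sc.pq sc.pr sc.ps sc.qr sc.qs sc.rs xx f1 f2 f3 f4 g1 g2 g3 g4
    (a4.imp (·.rot k4) (Or.imp (·.rot k4) (Or.imp (·.rot k4) (·.rot k4))))
    (a5.imp (·.rot k5) (Or.imp (·.rot k5) (Or.imp (·.rot k5) (·.rot k5))))
  obtain ⟨e4, rfl, rfl⟩ := e4
  have e5 : u = p ∧ v = q ∨ u = q ∧ v = p := by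
    rcases b2 with b2 | b2 | b2 | b2
    · exact pt2 sc.ps sc.qs sc.rs e4 (k2.rot b2)
    · refine (pt2 sc.ps sc.qs sc.rs ?_ (k2.rot b2)).symm.imp And.symm And.symm
      rcases e4 with e | e | e | e
      exacts [Or.inr (Or.inl e.symm), Or.inl e.symm, Or.inr (Or.inr (Or.inr e.symm)),
        Or.inr (Or.inr (Or.inl e.symm))]
    · rcases k2.rot b2 with e | e | e
      exacts [absurd e.1 f1, absurd e.1 f2, absurd e.1 f3]
    · rcases k2.rot b2 with e | e | e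
      exacts [absurd e.1 g1, absurd e.1 g2, absurd e.1 g3]
  have e6 : (T3 y6 p q x6 ∨ T3 y6 q p x6) ∧ x6 ≠ x := by
    have n : ∀ {a b}, T3 y6 a b x6 → (a = p ∨ a = q ∨ a = r ∨ a = s) → (b = p ∨ b = q ∨ b = r ∨ b = s) →
        (a = u ∧ b = v ∨ a = v ∧ b = u) ∧ x6 = z6 := fun k h1 h2 =>
      pt3 f1 f2 f3 f4 g1 g2 g3 g4 i1 i2 i3 i4 xx e5 h1 h2
        (b6.imp k.rot (Or.imp k.rot (Or.imp k.rot k.rot)))
    rcases a6 with a6 | a6 | a6 | a6
    · exact ⟨Or.inl a6, (n a6 (by simp) (by simp)).2 ▸ j3⟩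
    · exact ⟨Or.inr a6, (n a6 (by simp) (by simp)).2 ▸ j3⟩
    · exfalso
      rcases e5 with ⟨rfl, rfl⟩ | ⟨rfl, rfl⟩ <;> rcases (n a6 (by simp) (by simp)).1 with ⟨e, -⟩ | ⟨e, -⟩
      exacts [sc.pr e.symm, sc.qr e.symm, sc.qr e.symm, sc.pr e.symm]
    · exfalso
      rcases e5 with ⟨rfl, rfl⟩ | ⟨rfl, rfl⟩ <;> rcases (n a6 (by simp) (by simp)).1 with ⟨e, -⟩ | ⟨e, -⟩
      exacts [sc.ps e.symm, sc.qs e.symm, sc.qs e.symm, sc.ps e.symm]
  rcases e5 with ⟨rfl, rfl⟩ | ⟨rfl, rfl⟩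
  · exact Or.inl (k2.sq k4 f3.symm)
  · rcases e6.1 with e | e
    · exact Or.inr (Or.inl (k2.sq e i3.symm))
    · exact Or.inr (Or.inr (k4.sq e e6.2.symm))

/-- the two lemmas above, transported along the isomorphism (`IsConj` keeps `IsThreeCycle`) -/
theorem alt_rel {X : Type*} [Group X]
    (hX : Nonempty (X ≃* alternatingGroup (Fin 8)) ∨ Nonempty (X ≃* alternatingGroup (Fin 9)))
    {y2 y3 y4 y5 y6 a b : X} (h3 : orderOf y2 = 3) (ha : a * a = 1) (hb : b * b = 1)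
    (hab : Commute a b) (a1 : a ≠ 1) (b1 : b ≠ 1) (ab : a ≠ b) (hay : Commute a y2)
    (hby : Commute b y2) (i3 : IsConj y2 y3) (i4 : IsConj y2 y4) (i5 : IsConj y2 y5)
    (i6 : IsConj y2 y6) (h23 : (y2 * y3) ^ 2 = 1) (n23 : y2 * y3 ≠ 1)
    (h45 : (y4 * y5) ^ 2 = 1) (n45 : y4 * y5 ≠ 1)
    (c4 : y2 * y3⁻¹ * y2 * y4 * (y2 * y3⁻¹ * y2)⁻¹ = y4⁻¹)
    (c5 : y2 * y3⁻¹ * y2 * y5 * (y2 * y3⁻¹ * y2)⁻¹ = y5⁻¹)
    (c6 : y2 * y3⁻¹ * y2 * y6 * (y2 * y3⁻¹ * y2)⁻¹ = y6⁻¹)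
    (d2 : y4 * y5⁻¹ * y4 * y2 * (y4 * y5⁻¹ * y4)⁻¹ = y2⁻¹)
    (d6 : y4 * y5⁻¹ * y4 * y6 * (y4 * y5⁻¹ * y4)⁻¹ = y6⁻¹) :
    (y2 * y4) ^ 2 = 1 ∨ (y2 * y6) ^ 2 = 1 ∨ (y4 * y6) ^ 2 = 1 := by
  obtain ⟨n, hn, ⟨e⟩⟩ : ∃ n, (n = 8 ∨ n = 9) ∧ Nonempty (X ≃* alternatingGroup (Fin n)) :=
    hX.elim (fun h => ⟨8, Or.inl rfl, h⟩) fun h => ⟨9, Or.inr rfl, h⟩
  let f := (alternatingGroup (Fin n)).subtype.comp e.toMonoidHom
  have hf : Function.Injective f := Subtype.val_injective.comp e.injective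
  have t2 : (f y2).IsThreeCycle := three_cycle_of_four hn (y := e y2) (a := e a) (b := e b)
    ((e.orderOf_eq y2).trans h3) (by rw [← map_mul, ha, map_one]) (by rw [← map_mul, hb, map_one])
    (hab.map e) (by simpa using a1) (by simpa using b1) (e.injective.ne ab) (hay.map e) (hby.map e)
  have t : ∀ {y}, IsConj y2 y → (f y).IsThreeCycle := fun h =>
    (Perm.isConj_iff_cycleType_eq.1 (f.map_isConj h)).symm.trans t2
  have := three_cycle_rel t2 (t i3) (t i4) (t i5) (t i6) (by rw [← map_mul, ← map_pow, h23, map_one])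
    (by rwa [← map_mul, Ne, map_eq_one_iff f hf]) (by rw [← map_mul, ← map_pow, h45, map_one])
    (by rwa [← map_mul, Ne, map_eq_one_iff f hf]) (by simpa only [map_mul, map_inv] using congrArg f c4)
    (by simpa only [map_mul, map_inv] using congrArg f c5) (by simpa only [map_mul, map_inv] using congrArg f c6)
    (by simpa only [map_mul, map_inv] using congrArg f d2) (by simpa only [map_mul, map_inv] using congrArg f d6)
  simpa only [← map_mul, ← map_pow, map_eq_one_iff f hf] using this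

end CL.YK
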