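import Cfsg.Agent.INV.YK.Cls

/-! Groups with an involution centraliser `W(D₆)`: the conjugates of the central involution. -/

set_option autoImplicit false
set_option maxRecDepth 100000

namespace CL.YK
open Equiv CL.K

variable {G : Type*} [Group G] {φ : HH →* G} {α : G}

/-- `φ` is an isomorphism onto the centraliser of `α` -/
structure Dat (φ : HH →* G) (α : G) : Prop where
  inj : Function.Injective φ
  hal : φ al = α
  cen : ∀ g, Commute g α → ∃ h, φ h = g

theorem exists_dat (h1 : α ≠ 1) (e : Subgroup.centralizer ({α} : Set G) ≃* HH) :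
    ∃ φ : HH →* G, Dat φ α := by
  have hα : α ∈ Subgroup.centralizer ({α} : Set G) := Subgroup.mem_centralizer_singleton_iff.2 rfl
  refine ⟨(Subgroup.subtype _).comp e.symm.toMonoidHom,
    Subtype.val_injective.comp e.symm.injective, ?_, fun g hg =>
      ⟨e ⟨g, Subgroup.mem_centralizer_singleton_iff.2 hg⟩, by simp⟩⟩
  have hc : ∀ h, Commute (e ⟨α, hα⟩) h := fun h => by
    obtain ⟨k, rfl⟩ := e.surjective h
    exact Commute.map (Subtype.ext (Subgroup.mem_centralizer_singleton_iff.1 k.2).symm) e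
  rcases central fun p q => hc _ with h | h
  · exact absurd (congrArg Subtype.val (e.map_eq_one_iff.1 h)) h1
  · rw [← h]; simp

namespace Dat

theorem comm (D : Dat φ α) (h : HH) : Commute (φ h) α := D.hal ▸ (al_comm h).map φ

theorem sq (D : Dat φ α) : α * α = 1 := by rw [← D.hal, ← map_mul, al_sq, map_one]

theorem ne (D : Dat φ α) : α ≠ 1 := fun e =>
  (by hdec : al ≠ 1) (D.inj (by rw [D.hal, e, map_one]))

theorem of_comm (D : Dat φ α) {g h : HH} (hc : Commute (φ g) (φ h)) : Commute g h :=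
  D.inj (by simpa only [map_mul] using hc.eq)

theorem cl_ne (D : Dat φ α) {z : HH} (h : IsConj α (φ z)) : cl (code z) ≠ 0 := by
  obtain ⟨g, hg⟩ := isConj_iff.1 h
  refine CL.YK.cl_ne (D.inj ?_) fun e => D.ne ?_
  · rw [map_mul, ← hg, conj_mul, D.sq, map_one]; group
  · rwa [e, map_one, conj_eq_one_iff] at hg

theorem not_sq (D : Dat φ α) (q : HH) : ¬ IsConj α (φ (q * q)) := fun h => by
  obtain ⟨g, hg⟩ := isConj_iff.1 h.symm
  rw [map_mul, ← conj_mul] at hg
  obtain ⟨k, hk⟩ := D.cen (g * φ q * g⁻¹) (hg ▸ (Commute.refl _).mul_right (Commute.refl _))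
  exact sq_ne_al k (D.inj (by rw [map_mul, hk, hg, D.hal]))

end Dat

def OO (m : ℕ) : ℕ := 8 + 16 * (m % 8) + 256 * (m / 8)

/-- the classes of the conjugates of `α` are the bits of `O` -/
def Msk (φ : HH →* G) (α : G) (O : ℕ) : Prop := ∀ z : HH, IsConj α (φ z) ↔ bit O (cl (code z)) = 1

theorem OO_ex : ∀ b4 b5 b6 b8 b9 b10 : Bool, ∃ m < 64, ∀ k < 11, (bit (OO m) k = 1 ↔
    [false, false, false, true, b4, b5, b6, false, b8, b9, b10].getD k false = true) := by
  decide +kernel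

theorem isConj_phi (φ : HH →* G) {z w : HH} (k : HH) (h : k * z * k⁻¹ = w) : IsConj (φ z) (φ w) :=
  isConj_iff.2 ⟨φ k, by rw [← h, map_mul, map_mul, map_inv]⟩

theorem Dat.exists_msk (D : Dat φ α) : ∃ m < 64, Msk φ α (OO m) := by
  classical
  obtain ⟨m, hm, h⟩ := OO_ex (decide (IsConj α (φ (rep 4)))) (decide (IsConj α (φ (rep 5))))
    (decide (IsConj α (φ (rep 6)))) (decide (IsConj α (φ (rep 8)))) (decide (IsConj α (φ (rep 9))))
    (decide (IsConj α (φ (rep 10))))
  have h1 : ¬ IsConj α (φ (rep 1)) :=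
    (by simp only [rep]; hdec : el 12084242 * el 12084242 = rep 1) ▸ D.not_sq _
  have h2 : ¬ IsConj α (φ (rep 2)) :=
    (by simp only [rep]; hdec : el 11032082 * el 11032082 = rep 2) ▸ D.not_sq _
  have h7 : ¬ IsConj α (φ (rep 7)) :=
    (by simp only [rep]; hdec : el 11010660 * el 11010660 = rep 7) ▸ D.not_sq _
  have h3 : IsConj α (φ (rep 3)) := by
    rw [(by simp only [rep]; hdec : rep 3 = al), D.hal]
  refine ⟨m, hm, fun z => ?_⟩
  by_cases hz : cl (code z) = 0
  · rw [hz, h 0 (by omega)]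
    exact iff_of_false (fun hc => D.cl_ne hc hz) (by simp)
  obtain ⟨hl, k, hk⟩ := conj_rep hz
  have e : IsConj α (φ z) ↔ IsConj α (φ (rep (cl (code z)))) :=
    ⟨fun a => a.trans (isConj_phi φ k hk).symm, fun a => a.trans (isConj_phi φ k hk)⟩
  rw [e, h _ hl]
  generalize cl (code z) = j at hz hl
  interval_cases j <;> simp_all

/-- `n` carries the pair `(α, φ r)` to `(φ y, α)` -/
structure Swp (φ : HH →* G) (α n : G) (y r : HH) : Prop where
  hy : n * α * n⁻¹ = φ y
  hr : n * φ r * n⁻¹ = α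

theorem Swp.symm {n : G} {y r : HH} (s : Swp φ α n y r) : Swp φ α n⁻¹ r y :=
  ⟨by rw [← s.hr]; group, by rw [← s.hy]; group⟩

theorem conj_comm {a b : G} (n : G) (h : Commute a b) : Commute (n * a * n⁻¹) (n * b * n⁻¹) :=
  h.map (MulAut.conj n)

theorem Swp.ex {n : G} {y r : HH} (s : Swp φ α n y r) (D : Dat φ α) {z : HH} (hz : Commute z r) :
    ∃ z', φ z' = n * φ z * n⁻¹ ∧ Commute z' y := by
  obtain ⟨z', h⟩ := D.cen (n * φ z * n⁻¹) (s.hr ▸ conj_comm n (hz.map φ))
  exact ⟨z', h, D.of_comm (h ▸ s.hy ▸ conj_comm n (D.comm z))⟩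

theorem Swp.sum {n : G} {y r : HH} (s : Swp φ α n y r) (D : Dat φ α) (F F' : HH → ℕ)
    (hF : ∀ z, ¬ Commute z r → F z = 0) (hF' : ∀ z, ¬ Commute z y → F' z = 0)
    (h : ∀ z z', Commute z r → Commute z' y → φ z' = n * φ z * n⁻¹ → F z = F' z') :
    ∑ᶠ z, F z = ∑ᶠ z, F' z := by
  classical
  choose! β h1 h2 using fun z (hz : Commute z r) => s.ex D hz
  have e : ∀ (F : HH → ℕ) (t : HH), (∀ z, ¬ Commute z t → F z = 0) →
      ∑ᶠ z, F z = ∑ᶠ z ∈ {z | Commute z t}, F z := fun F t hF => by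
    rw [← finsum_mem_univ]
    exact finsum_mem_inter_support_eq' _ _ _ fun x hx =>
      iff_of_true trivial (by_contra fun hn => hx (hF x hn))
  rw [e F r hF, e F' y hF']
  refine finsum_mem_eq_of_bijOn β ⟨fun z hz => h2 z hz, fun z hz w hw e' => D.inj ?_,
    fun w hw => ?_⟩ fun z hz => h z _ hz (h2 z hz) (h1 z hz)
  · have := (h1 z hz).symm.trans (e' ▸ h1 w hw)
    simpa using this
  · obtain ⟨z, a, b⟩ := s.symm.ex D hw
    exact ⟨z, b, D.inj (by rw [h1 z b, a]; group)⟩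

noncomputable def DK (O t : ℕ) : List ℕ :=
  lfilter (fun z => Nat.beq (bit O (cl z)) 1) (lfilter (fun z => cm z t) LL)

theorem lsum_filter (f : ℕ → ℕ) (p : ℕ → Bool) (L : List ℕ) :
    lsum f (lfilter p L) = lsum (fun c => if p c then f c else 0) L := by
  simp only [lsum_eq, lfilter_eq]
  induction L with
  | nil => rfl
  | cons a L ih => rw [List.filter_cons]; split_ifs with h <;> simp [h, ih]

open Classical in
theorem Msk.sum_DK {O : ℕ} (M : Msk φ α O) (D : Dat φ α) (t : HH) (f : ℕ → ℕ) :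
    ∑ᶠ z, (if Commute z t ∧ IsConj α (φ z) then f (code z) else 0) = lsum f (DK O (code t)) := by
  rw [DK, lsum_filter, lsum_filter]
  refine sum_LL _ _ (fun z hz => if_neg fun h => D.cl_ne h.2 hz) fun z _ => ?_
  simp only [cm_code, Nat.beq_eq, ← M z, ite_and]

theorem isConj_iff_of {n : G} {z z' : HH} (h : φ z' = n * φ z * n⁻¹) :
    IsConj α (φ z) ↔ IsConj α (φ z') :=
  ⟨fun a => a.trans (isConj_iff.2 ⟨n, h.symm⟩), fun a => a.trans (isConj_iff.2 ⟨n, h.symm⟩).symm⟩

theorem Msk.bit_eq {O : ℕ} (M : Msk φ α O) {n : G} {z z' : HH} (h : φ z' = n * φ z * n⁻¹) :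
    bit O (cl (code z)) = bit O (cl (code z')) := by
  have := (M z).symm.trans ((isConj_iff_of h).trans (M z'))
  rw [CL.K.bit_eq, CL.K.bit_eq] at *
  split_ifs at * <;> simp_all

theorem Swp.lsum_eq {O : ℕ} {n : G} {y r : HH} (s : Swp φ α n y r) (D : Dat φ α) (M : Msk φ α O)
    (f f' : ℕ → ℕ) (h : ∀ z z', φ z' = n * φ z * n⁻¹ → f (code z) = f' (code z')) :
    lsum f (DK O (code r)) = lsum f' (DK O (code y)) := by
  classical
  rw [← M.sum_DK D, ← M.sum_DK D]
  refine s.sum D _ _ (fun z hz => if_neg fun a => hz a.1) (fun z hz => if_neg fun a => hz a.1)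
    fun z z' a b e => ?_
  rw [h z z' e]
  exact if_congr (and_congr (iff_of_true a b) (isConj_iff_of e)) rfl rfl

noncomputable def J2 (O t u v : ℕ) : ℕ := lsum (fun z => Nat.add 1 (Nat.add
  (Nat.mul 256 (bit O (cl (mu z u)))) (Nat.mul 65536 (bit O (cl (mu z v)))))) (DK O t)

noncomputable def J3 (O t u : ℕ) : ℕ := forceL (DK O t) fun K =>
  lsum (fun z => lsum (fun w => bit O (cl (mu (mu z w) u))) K) K

theorem Swp.J_eq {O : ℕ} {n : G} {y r : HH} (s : Swp φ α n y r) (D : Dat φ α) (M : Msk φ α O) :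
    J2 O (code r) (code r) 12154161 = J2 O (code y) 12154161 (code y) ∧
      J3 O (code r) (code r) = J3 O (code y) 12154161 := by
  have e1 : ∀ z z', φ z' = n * φ z * n⁻¹ →
      bit O (cl (mu (code z) (code r))) = bit O (cl (mu (code z') 12154161)) := fun z z' e => by
    rw [← code_al, ← code_mul, ← code_mul]
    exact M.bit_eq (n := n) (by rw [map_mul, map_mul, e, D.hal, ← s.hr, conj_mul])
  have e2 : ∀ z z', φ z' = n * φ z * n⁻¹ →
      bit O (cl (mu (code z) 12154161)) = bit O (cl (mu (code z') (code y))) := fun z z' e => by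
    rw [← code_al, ← code_mul, ← code_mul]
    exact M.bit_eq (n := n) (by rw [map_mul, map_mul, e, D.hal, ← s.hy, conj_mul])
  refine ⟨s.lsum_eq D M _ _ fun z z' e => by rw [e1 z z' e, e2 z z' e], ?_⟩
  rw [J3, J3, forceL_eq, forceL_eq]
  refine s.lsum_eq D M _ _ fun z z' e => s.lsum_eq D M _ _ fun w w' e' => ?_
  rw [← code_mul z w, ← code_mul z' w']
  exact e1 (z * w) (z' * w') (by rw [map_mul, map_mul, e, e', conj_mul])

theorem Msk.pair {O : ℕ} (M : Msk φ α O) (D : Dat φ α) {y : ℕ} (h1 : y < 11) (h2 : y ≠ 3)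
    (h3 : bit O y = 1) : ∃ r < 11, r ≠ 3 ∧ bit O r = 1 ∧ ∃ n, Swp φ α n (rep y) (rep r) := by
  obtain ⟨g, hg⟩ := isConj_iff.1 ((M (rep y)).2 (by rw [code_rep y h1, cl_rpc y h1, h3]))
  obtain ⟨z, hz⟩ := D.cen (g⁻¹ * α * g⁻¹⁻¹) (by
    have := conj_comm g⁻¹ (D.comm (rep y)).symm
    rwa [← hg, show g⁻¹ * (g * α * g⁻¹) * g⁻¹⁻¹ = α by group] at this)
  have hc : IsConj α (φ z) := isConj_iff.2 ⟨g⁻¹, hz.symm⟩
  obtain ⟨hl, k, hk⟩ := conj_rep (D.cl_ne hc)
  have s : Swp φ α (g * φ k) (rep y) (rep (cl (code z))) := by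
    refine ⟨?_, ?_⟩
    · rw [← hg, mul_assoc g, (D.comm k).eq]; group
    · rw [show g * φ k * φ (rep (cl (code z))) * (g * φ k)⁻¹ =
        g * φ (k * rep (cl (code z)) * k⁻¹) * g⁻¹ by simp only [map_mul, map_inv]; group, hk, hz]
      group
  refine ⟨_, hl, fun e => h2 ?_, (M z).1 hc, _, s⟩
  have e3 : rep 3 = al := by simp only [rep]; hdec
  have := s.hr
  rw [e, e3, D.hal, s.hy, ← D.hal, ← e3] at this
  rw [← cl_rpc y h1, ← code_rep y h1, D.inj this, code_rep 3 (by omega), cl_rpc 3 (by omega)]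

noncomputable def yt (m : ℕ) : ℕ := fld 4 15 (nat_lit 0x454045084546454945465548454a45aa45465548454945994548458845404500) m

noncomputable def bad (O y : ℕ) : Bool := force (J2 O (rpc y) 12154161 (rpc y)) fun a =>
  allLt (fun r => Nat.beq r 3 || !Nat.beq (bit O r) 1 || !Nat.beq (J2 O (rpc r) (rpc r) 12154161) a ||
    !Nat.beq (J3 O (rpc r) (rpc r)) (J3 O (rpc y) 12154161)) 11

theorem bad_chk : allLt (fun m => lany (Nat.beq m) [0, 1, 4, 57, 60] || (Nat.blt (yt m) 11 &&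
    !Nat.beq (yt m) 3 && Nat.beq (bit (OO m) (yt m)) 1 && bad (OO m) (yt m))) 64 = true := by
  decide +kernel

theorem Msk.cases {m : ℕ} (hm : m < 64) (M : Msk φ α (OO m)) (D : Dat φ α) :
    m = 0 ∨ m = 1 ∨ m = 4 ∨ m = 57 ∨ m = 60 := by
  have := allLt_iff.1 bad_chk m hm
  simp only [Bool.or_eq_true, lany_iff, Nat.beq_eq, Bool.and_eq_true, Nat.blt_eq,
    Bool.not_eq_true', ← Bool.not_eq_true] at this
  rcases this with h | ⟨⟨⟨h1, h2⟩, h3⟩, h4⟩
  · simpa using h
  obtain ⟨r, r1, r2, r3, n, s⟩ := M.pair D h1 h2 h3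
  have e := s.J_eq D M
  rw [code_rep _ h1, code_rep _ r1] at e
  rw [bad, force_eq] at h4
  have := allLt_iff.1 h4 r r1
  simp [e.1, e.2, r2, r3] at this

theorem Msk.sw7 (M : Msk φ α (OO 1)) (D : Dat φ α) : ∃ n, Swp φ α n (rf 0 2) (rf 0 2) := by
  obtain ⟨r, r1, r2, r3, n, s⟩ := M.pair D (y := 4) (by omega) (by omega) (by decide +kernel)
  rw [(by decide +kernel : ∀ r < 11, r ≠ 3 → bit (OO 1) r = 1 → r = 4) r r1 r2 r3,
    (by simp only [rep]; hdec : rep 4 = rf 0 2)] at s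
  exact ⟨n, s⟩

theorem chk27 : ∀ r < 11, r ≠ 3 → bit (OO 60) r = 1 →
    J2 (OO 60) (rpc r) (rpc r) 12154161 = J2 (OO 60) (rpc 6) 12154161 (rpc 6) → r = 6 := by
  decide +kernel

theorem Msk.sw27 (M : Msk φ α (OO 60)) (D : Dat φ α) :
    ∃ n, Swp φ α n (al * rf 0 3) (al * rf 0 3) := by
  obtain ⟨r, r1, r2, r3, n, s⟩ := M.pair D (y := 6) (by omega) (by omega) (by decide +kernel)
  have e := (s.J_eq D M).1
  rw [code_rep _ r1, code_rep 6 (by omega)] at e
  rw [chk27 r r1 r2 r3 e, (by simp only [rep]; hdec : rep 6 = al * rf 0 3)] at s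
  exact ⟨n, s⟩

/-- the permutation of the six pairs -/
def pf (h : HH) (i : Fin 6) : Fin 6 := ⟨(h.1 ⟨2 * i, by omega⟩).val / 2, by omega⟩

theorem pf_val (h : HH) (i : Fin 6) : (pf h i).val = dg (code h) i / 2 := by rw [dg_code]; rfl

theorem pf_mul (g h : HH) (i : Fin 6) : pf (g * h) i = pf g (pf h i) := by
  refine Fin.ext ?_
  show (g.1 (h.1 ⟨2 * i, _⟩)).val / 2 = (g.1 ⟨2 * ((h.1 ⟨2 * i, _⟩).val / 2), _⟩).val / 2
  generalize_proofs a b
  generalize h.1 ⟨2 * i, a⟩ = x at *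
  rcases Nat.mod_two_eq_zero_or_one x with h2 | h2
  · rw [show (⟨2 * (x.val / 2), b⟩ : Fin 12) = x from Fin.ext (by simp only; omega)]
  · have e : alP ⟨2 * (x.val / 2), b⟩ = x := Fin.ext (alP_half x h2)
    generalize (⟨2 * (x.val / 2), b⟩ : Fin 12) = y at e
    rw [← e, app_alP]
    exact (by decide +kernel : ∀ y : Fin 12, (alP y).val / 2 = y.val / 2) _

def pp : HH →* Perm (Fin 6) := MonoidHom.toHomPerm
  { toFun := pf
    map_one' := funext fun i => Fin.ext (by show 2 * i.val / 2 = i.val; omega)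
    map_mul' := fun g h => funext (pf_mul g h) }

theorem pp_eq {h : HH} {σ : Perm (Fin 6)} (e : ∀ i : Fin 6, dg (code h) i / 2 = σ i) : pp h = σ :=
  Equiv.ext fun i => Fin.ext ((pf_val h i).trans (e i))

theorem pp_al : pp al = 1 := pp_eq (by rw [code_al]; decide +kernel)

/-- the twist by the sign character -/
noncomputable def tw : HH →* HH where
  toFun h := if Perm.sign (pp h) = 1 then h else h * al
  map_one' := by simp
  map_mul' g h := by
    have e : g * al * (h * al) = g * h := by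
      rw [mul_assoc, ← mul_assoc al, ← (al_comm h).eq, mul_assoc h, al_sq, mul_one]
    have e' : al * h = h * al := (al_comm h).eq.symm
    rcases Int.units_eq_one_or (Perm.sign (pp g)) with a | a <;>
      rcases Int.units_eq_one_or (Perm.sign (pp h)) with b | b <;>
      simp [a, b, e, e', mul_assoc]

theorem tw_pos {h : HH} (a : Perm.sign (pp h) = 1) : tw h = h := if_pos a

theorem tw_neg {h : HH} (a : Perm.sign (pp h) ≠ 1) : tw h = h * al := if_neg a

theorem tw_tw (h : HH) : tw (tw h) = h := by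
  by_cases a : Perm.sign (pp h) = 1
  · rw [tw_pos a, tw_pos a]
  · rw [tw_neg a, tw_neg (by simpa [pp_al] using a), mul_assoc, al_sq, mul_one]

theorem Dat.twist (D : Dat φ α) : Dat (φ.comp tw) α :=
  ⟨D.inj.comp (Function.LeftInverse.injective tw_tw),
    by rw [MonoidHom.comp_apply, tw_pos (by rw [pp_al, map_one]), D.hal], fun g hg => by
      obtain ⟨h, e⟩ := D.cen g hg
      exact ⟨tw h, by rw [MonoidHom.comp_apply, tw_tw, e]⟩⟩

theorem tw_rep : cl (code (tw (rep 4))) = 6 ∧ cl (code (tw (rep 6))) = 4 ∧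
    cl (code (tw (rep 8))) = 8 := by
  have h4 : pp (rep 4) = swap 0 1 := pp_eq (by rw [code_rep 4 (by omega)]; decide +kernel)
  have h6 : pp (rep 6) = swap 0 1 := pp_eq (by rw [code_rep 6 (by omega)]; decide +kernel)
  have h8 : pp (rep 8) = swap 0 1 * swap 2 3 :=
    pp_eq (by rw [code_rep 8 (by omega)]; decide +kernel)
  rw [tw_neg (h := rep 4) (by rw [h4]; decide), tw_neg (h := rep 6) (by rw [h6]; decide),
    tw_pos (h := rep 8) (by rw [h8]; decide), code_mul, code_mul, code_al, code_rep 4 (by omega),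
    code_rep 6 (by omega), code_rep 8 (by omega)]
  decide +kernel

theorem Msk.tw_bit {O O' : ℕ} (M : Msk φ α O) (M' : Msk (φ.comp tw) α O') {j k : ℕ} (hj : j < 11)
    (h : cl (code (tw (rep j))) = k) : bit O' j = 1 ↔ bit O k = 1 := by
  rw [← h, ← M, ← MonoidHom.comp_apply, M', code_rep j hj, cl_rpc j hj]

theorem Dat.three (D : Dat φ α) : (∀ g : G, Commute α (g * α * g⁻¹) → g * α * g⁻¹ = α) ∨
    (∃ φ' : HH →* G, Dat φ' α ∧ Msk φ' α (OO 1)) ∨ ∃ φ' : HH →* G, Dat φ' α ∧ Msk φ' α (OO 60) := by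
  obtain ⟨m, hm, M⟩ := D.exists_msk
  obtain ⟨m', hm', M'⟩ := D.twist.exists_msk
  have h4 := M.tw_bit M' (by omega) tw_rep.1
  have h6 := M.tw_bit M' (by omega) tw_rep.2.1
  have h8 := M.tw_bit M' (by omega) tw_rep.2.2
  have hc := M'.cases hm' D.twist
  rcases M.cases hm D with rfl | rfl | rfl | rfl | rfl
  · refine Or.inl fun g hg => ?_
    obtain ⟨z, hz⟩ := D.cen _ hg.symm
    have h1 : IsConj α (φ z) := isConj_iff.2 ⟨g, hz.symm⟩
    obtain ⟨h2, k, hk⟩ := conj_rep (D.cl_ne h1)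
    rw [(by decide +kernel : ∀ r < 11, bit (OO 0) r = 1 → r = 3) _ h2 ((M z).1 h1),
      (by simp only [rep]; hdec : rep 3 = al), (al_comm k).eq, mul_inv_cancel_right] at hk
    rw [← hz, ← hk, D.hal]
  · exact Or.inr (Or.inl ⟨φ, D, M⟩)
  · refine Or.inr (Or.inl ⟨_, D.twist, ?_⟩)
    rcases hc with rfl | rfl | rfl | rfl | rfl
    exacts [absurd h4 (by decide +kernel), M', absurd h4 (by decide +kernel),
      absurd h8 (by decide +kernel), absurd h8 (by decide +kernel)]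
  · refine Or.inr (Or.inr ⟨_, D.twist, ?_⟩)
    rcases hc with rfl | rfl | rfl | rfl | rfl
    exacts [absurd h8 (by decide +kernel), absurd h8 (by decide +kernel),
      absurd h8 (by decide +kernel), absurd h6 (by decide +kernel), M']
  · exact Or.inr (Or.inr ⟨φ, D, M⟩)

end CL.YK
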