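import Cfsg.Agent.INV.YK.Fus

/-! Generators of `W(D₆)` and `W(D₄)`; transitivity. -/

set_option autoImplicit false
set_option maxRecDepth 100000

namespace CL.YK
open Equiv CL.K

theorem flip_chk : ∀ p q x y : Fin 12, rc x y = rc p q → p.val / 2 ≠ q.val / 2 →
    rc x (alP y) = rc p (alP q) := by decide +kernel

theorem comm_flip {h : HH} {p q : Fin 12} (hpq : p.val / 2 ≠ q.val / 2) (hc : Commute h (rf p q)) :
    Commute h (rf p (alP q)) := by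
  have e := conj_rf h p q
  rw [hc.eq, mul_inv_cancel_right, code_iff, code_rf, code_rf] at e
  have e' := conj_rf h p (alP q)
  have e2 : rf (h.1 p) (alP (h.1 q)) = rf p (alP q) := by
    rw [code_iff, code_rf, code_rf]; exact flip_chk _ _ _ _ e.symm hpq
  rw [app_alP, e2] at e'
  exact mul_inv_eq_iff_eq_mul.1 e'

theorem two_chk : ∀ p q : Fin 12, p.val / 2 ≠ q.val / 2 →
    (tv 1 ((tv 0 p).1 q) * tv 0 p).1 p = 0 ∧ (tv 1 ((tv 0 p).1 q) * tv 0 p).1 q = 2 := by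
  decide +kernel

theorem exists_two {p q p' q' : Fin 12} (h : p.val / 2 ≠ q.val / 2) (h' : p'.val / 2 ≠ q'.val / 2) :
    ∃ k : HH, k.1 p = p' ∧ k.1 q = q' := by
  obtain ⟨a1, a2⟩ := two_chk p q h
  obtain ⟨b1, b2⟩ := two_chk p' q' h'
  generalize tv 1 ((tv 0 p).1 q) * tv 0 p = a at a1 a2
  generalize tv 1 ((tv 0 p').1 q') * tv 0 p' = b at b1 b2
  refine ⟨b⁻¹ * a, ?_, ?_⟩
  · show b.1⁻¹ (a.1 p) = p'
    rw [a1, ← b1, Perm.inv_def, symm_apply_apply]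
  · show b.1⁻¹ (a.1 q) = q'
    rw [a2, ← b2, Perm.inv_def, symm_apply_apply]

theorem three_chk : ∀ p q : Fin 12, 2 ≤ p.val → 2 ≤ q.val → p.val / 2 ≠ q.val / 2 →
    (tv 1 p * tv 2 ((tv 1 p).1 q)).1 0 = 0 ∧ (tv 1 p * tv 2 ((tv 1 p).1 q)).1 2 = p ∧
      (tv 1 p * tv 2 ((tv 1 p).1 q)).1 4 = q := by
  decide +kernel

variable {K : Subgroup HH}

theorem cj {g : HH} {p q p' q' : Fin 12} (hg : g ∈ K) (hr : rf p q ∈ K) (e1 : g.1 p = p')
    (e2 : g.1 q = q') : rf p' q' ∈ K := by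
  rw [← e1, ← e2, ← conj_rf]
  exact K.mul_mem (K.mul_mem hg hr) (K.inv_mem hg)

theorem star_chk : ∀ b : Fin 12, b = 0 ∨ b = 4 → ∀ p q : Fin 12, b.val ≤ p.val → b.val ≤ q.val →
    rf p q = rf b p * rf b q * rf b p ∨ rf p q = 1 ∨ ∃ x : Fin 12, b.val ≤ x.val ∧ rf p q = rf b x := by
  hdec

theorem mem_of_star {i : ℕ} {b : Fin 12} (hb : b = 0 ∨ b = 4) (hi : b.val = 2 * i)
    (hK : ∀ p : Fin 12, b.val ≤ p.val → rf b p ∈ K) {h : HH} (hf : Fx i h) : h ∈ K := by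
  refine hf.mem (by rcases hb with rfl | rfl <;> simp at hi <;> omega) fun p q hp hq => ?_
  rw [← hi] at hp hq
  rcases star_chk b hb p q hp hq with e | e | ⟨x, hx, e⟩ <;> rw [e]
  exacts [K.mul_mem (K.mul_mem (hK p hp) (hK q hq)) (hK p hp), K.one_mem, hK x hx]

theorem star_ext {b p q : Fin 12} (h : rf b p ∈ K) (h' : rf p q ∈ K)
    (e : (rf p q).1 b = b ∧ (rf p q).1 p = q := by decide +kernel) : rf b q ∈ K := cj h' h e.1 e.2

theorem mem_W4 (h1 : rf 4 6 ∈ K) (h2 : rf 6 8 ∈ K) (h3 : rf 8 10 ∈ K) (h4 : rf 8 11 ∈ K) {h : HH}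
    (hf : Fx 2 h) : h ∈ K := by
  have a8 := star_ext h1 h2
  have a10 := star_ext a8 h3
  have a11 := star_ext a8 h4
  have a9 := star_ext a11 ((by hdec : rf 8 10 = rf 11 9) ▸ h3)
  have a7 := star_ext a9 ((by hdec : rf 6 8 = rf 9 7) ▸ h2)
  refine mem_of_star (b := 4) (Or.inr rfl) rfl (fun p hp => ?_) hf
  rcases (by decide : ∀ p : Fin 12, (4 : Fin 12).val ≤ p.val → p = 4 ∨ p = 5 ∨ p = 6 ∨ p = 7 ∨ p = 8 ∨
    p = 9 ∨ p = 10 ∨ p = 11) p hp with rfl | rfl | rfl | rfl | rfl | rfl | rfl | rfl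
  exacts [(by hdec : 1 = rf 4 4) ▸ K.one_mem, (by hdec : 1 = rf 4 5) ▸ K.one_mem, h1, a7, a8, a9,
    a10, a11]

theorem Fx_rf : ∀ p q : Fin 12, 4 ≤ p.val → 4 ≤ q.val → Fx 2 (rf p q) := by
  unfold Fx; decide +kernel

theorem Fx_zero (h : HH) : Fx 0 h := fun _ hx => absurd hx (by omega)

theorem mem_W6 (h0 : rf 0 2 ∈ K) (h0' : rf 2 4 ∈ K) (h1 : rf 4 6 ∈ K) (h2 : rf 6 8 ∈ K)
    (h3 : rf 8 10 ∈ K) (h4 : rf 8 11 ∈ K) (h : HH) : h ∈ K := by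
  have a4 := star_ext h0 h0'
  have a : ∀ p : Fin 12, 6 ≤ p.val → rf 0 p ∈ K := fun p hp =>
    star_ext a4 (mem_W4 h1 h2 h3 h4 (Fx_rf 4 p (by decide) (by omega)))
      ((by decide +kernel : ∀ p : Fin 12, 6 ≤ p.val → (rf 4 p).1 0 = 0 ∧ (rf 4 p).1 4 = p) p hp)
  have a5 := star_ext (a 7 (by decide)) ((by hdec : rf 4 6 = rf 7 5) ▸ h1)
  have a3 := star_ext a5 ((by hdec : rf 2 4 = rf 5 3) ▸ h0')
  refine mem_of_star (b := 0) (Or.inl rfl) rfl (fun p _ => ?_) (Fx_zero h)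
  rcases (by decide : ∀ p : Fin 12, p = 0 ∨ p = 1 ∨ p = 2 ∨ p = 3 ∨ p = 4 ∨ p = 5 ∨ 6 ≤ p.val) p with
    rfl | rfl | rfl | rfl | rfl | rfl | hp
  exacts [(by hdec : 1 = rf 0 0) ▸ K.one_mem, (by hdec : 1 = rf 0 1) ▸ K.one_mem, h0, a3, a4, a5,
    a p hp]

theorem fx_of {h : HH} (h0 : h.1 0 = 0) (h2 : h.1 2 = 2) : Fx 2 h := by
  intro x hx
  rcases (by decide : ∀ x : Fin 12, x.val < 2 * 2 → x = 0 ∨ x = alP 0 ∨ x = 2 ∨ x = alP 2) x hx with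
    rfl | rfl | rfl | rfl
  exacts [h0, by rw [app_alP, h0], h2, by rw [app_alP, h2]]

variable {G : Type*} [Group G]

theorem braid_conj {a b : G} (ha : a * a = 1) (hb : b * b = 1) (h : (a * b) ^ 3 = 1) :
    a * b * a * (a * b)⁻¹ = b := by
  rw [mul_inv_rev, inv_eq_of_mul_eq_one_right ha, inv_eq_of_mul_eq_one_right hb]
  have : a * b * a * (b * a) * b = b * b := by rw [hb, ← h, pow_three]; group
  exact mul_right_cancel this

theorem conj_pow_one {a b : G} (n : G) {k : ℕ} (h : (a * b) ^ k = 1) :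
    (n * a * n⁻¹ * (n * b * n⁻¹)) ^ k = 1 := by rw [conj_mul, conj_pow, h]; group

theorem comm_of_conj {a b : G} (n : G) (h : Commute (n * a * n⁻¹) (n * b * n⁻¹)) : Commute a b := by
  simpa [mul_assoc] using conj_comm n⁻¹ h

end CL.YK
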